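import Mathlib
import Cfsg.Agent.Lib.PLocal.Thompson

/-! Combinatorial and linear lemmas for Glauberman's normal `p`-complement criterion (S3070). -/

set_option autoImplicit false

namespace CfsgLib.JAb

open Subgroup Cfsg CfsgLib.PLocal
open scoped commutatorElement

section beta

variable {M : Type*} [AddCommGroup M] {β : ℕ → ℕ → ℕ → M} {n s : ℕ}

theorem beta_zero
    (hr : ∀ i j l, β i j (l + 1) = β (i + 1) j l + β i (j + 1) l + β (i + 1) (j + 1) l)
    (h1 : ∀ i j l, n ≤ i → β i j l = 0) (h3 : ∀ i j l, s ≤ l → β i j l = 0) (j : ℕ) :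
    ∀ i l, n + s ≤ i + j + l + 1 → β i j l = 0 := by
  induction j with
  | zero =>
    intro i l h
    by_cases e : n ≤ i
    exacts [h1 _ _ _ e, h3 _ _ _ (by omega)]
  | succ j ih =>
    have key : ∀ k i l, n ≤ i + k → n + s ≤ i + (j + 1) + l + 1 → β i (j + 1) l = 0 := by
      intro k
      induction k with
      | zero => exact fun i l h _ => h1 _ _ _ h
      | succ k ihk =>
        intro i l h h'
        have := hr i j l
        rw [ih i (l + 1) (by omega), ih (i + 1) l (by omega),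
          ihk (i + 1) l (by omega) (by omega)] at this
        simpa using this.symm
    exact fun i l => key n i l (by omega)

theorem beta_iso
    (hr : ∀ i j l, β i j (l + 1) = β (i + 1) j l + β i (j + 1) l + β (i + 1) (j + 1) l)
    (h1 : ∀ i j l, n ≤ i → β i j l = 0) (h2 : ∀ i j l, β i j l = -β j i l)
    (h0 : ∀ i l, β i i l = 0) (h3 : ∀ i j l, s ≤ l → β i j l = 0)
    (hn : s + 4 ≤ n ∨ (n = 5 ∧ s = 2)) {i j : ℕ} (hi : n ≤ i + 3) (hj : n ≤ j + 3) :
    β i j 0 = 0 := by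
  have z := beta_zero hr h1 h3
  by_cases e : n + s ≤ i + j + 0 + 1
  · exact z _ _ _ e
  by_cases e' : i = j
  · rw [e', h0]
  obtain ⟨rfl, rfl⟩ : n = 5 ∧ s = 2 := by omega
  have a1 : β 1 3 1 = 0 := by
    have := hr 1 2 1
    rw [h3 _ _ _ le_rfl, h0, z 3 2 1 (by omega)] at this
    simpa using this.symm
  have a2 : β 0 4 1 = 0 := by
    have := hr 0 3 1
    rw [h3 _ _ _ le_rfl, a1, z 4 1 1 (by omega)] at this
    simpa using this.symm
  have a3 : β 1 4 0 = 0 := by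
    have := hr 0 4 0
    rw [a2, h2 0 5 0, h1 5 0 0 le_rfl, z 5 1 0 (by omega)] at this
    simpa using this.symm
  have a4 : β 2 3 0 = 0 := by
    have := hr 1 3 0
    rw [a1, a3, z 4 2 0 (by omega)] at this
    simpa using this.symm
  obtain ⟨rfl, rfl⟩ | ⟨rfl, rfl⟩ : (i = 2 ∧ j = 3) ∨ (i = 3 ∧ j = 2) := by omega
  · exact a4
  · rw [h2, a4, neg_zero]

end beta

theorem exp_cases {p k : ℕ} (hp : 5 ≤ p) :
    (k + 2) + 4 ≤ p ^ (k + 1) ∨ (p ^ (k + 1) = 5 ∧ k + 2 = 2) := by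
  rcases k with - | k
  · rw [zero_add, zero_add, pow_one]
    omega
  · left
    have h1 : k + 1 < p ^ (k + 1) := Nat.lt_pow_self (by omega)
    rw [pow_succ]
    nlinarith

section lin

variable {K V : Type*} [Field K] [AddCommGroup V] [Module K V]

theorem pow_succ_eq_zero [FiniteDimensional K V] {D : Module.End K V} (h : IsNilpotent D) {m : ℕ}
    (hm : Module.finrank K (LinearMap.range D) ≤ m) : D ^ (m + 1) = 0 := by
  have hi : ∀ x ∈ LinearMap.range D, D x ∈ LinearMap.range D := fun x _ => ⟨x, rfl⟩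
  obtain ⟨k, hk⟩ := Module.End.isNilpotent.restrict hi h
  have h1 : (D.restrict hi) ^ m = 0 := by
    rw [← LinearMap.ker_eq_top, Module.End.ker_pow_eq_ker_pow_finrank_of_le hm, eq_top_iff]
    exact le_trans (by rw [hk, LinearMap.ker_zero]) (Module.End.ker_pow_le_ker_pow_finrank _ k)
  ext x
  rw [Module.End.pow_restrict] at h1
  have h2 := congrArg (fun f => ((f ⟨D x, x, rfl⟩ : LinearMap.range D) : V)) h1
  simpa [pow_succ] using h2

theorem pow_apply_eq {α D : Module.End K V} (e : ∀ x, α x = x + D x) {v : V}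
    (h : D (D (D v)) = 0) (i : ℕ) :
    (α ^ i) v = v + (i : K) • D v + (i.choose 2 : K) • D (D v) := by
  induction i with
  | zero => simp
  | succ i ih =>
    rw [pow_succ', Module.End.mul_apply, e, ih, Nat.choose_succ_succ' i 1, Nat.choose_one_right]
    simp only [map_add, map_smul, h, Nat.cast_add, Nat.cast_one, add_smul, one_smul, smul_zero]
    abel

theorem sq_apply_eq_zero [NeZero (2 : K)] {α D : Module.End K V} (e : ∀ x, α x = x + D x) {v : V}
    (h : D (D (D v)) = 0) {i : ℕ} (hi : (α ^ i) v - v = D (D v)) : D (D v) = 0 := by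
  rw [pow_apply_eq e h, add_assoc, add_sub_cancel_left] at hi
  have h4 := congrArg D hi
  rw [map_add, map_smul, map_smul, h, smul_zero, add_zero, smul_eq_zero] at h4
  refine h4.elim (fun e => ?_) id
  rw [← hi, Nat.cast_choose_two, e]
  simp

end lin

variable {G : Type*} [Group G] [Finite G]

/-- Thompson's count. -/
theorem thompson_count {S A M : Subgroup G} (hA : A ∈ maxElemIn 0 S) (hMS : M ≤ S)
    (hM : ∀ x ∈ M, ∀ y ∈ M, x * y = y * x) {u : G} (hu : ∀ c ∈ A, ⁅c, u⁆ ∈ M) {a : G} (ha : a ∈ A) :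
    ∃ c ∈ A, ⁅c, u⁆⁻¹ * ⁅a, ⁅a, u⁆⁆ ∈ centralizer (A : Set G) := by
  have hc : ∀ {x y}, x ∈ A → y ∈ A → x * y = y * x := fun hx hy => elemAb_comm hA.2.1 hx hy
  have hm : ∀ c d : G, ⁅c * d, u⁆ = c * ⁅d, u⁆ * c⁻¹ * ⁅c, u⁆ := fun c d => by
    simp only [commutatorElement_def]; group
  let X := closure {x | ∃ c ∈ A, ⁅c, u⁆ = x}
  have hX : ∀ {c}, c ∈ A → ⁅c, u⁆ ∈ X := fun h => subset_closure ⟨_, h, rfl⟩
  have hXM : X ≤ M := (closure_le _).2 (by rintro _ ⟨c, h, rfl⟩; exact hu c h)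
  have hXc : ∀ {x y}, x ∈ X → y ∈ X → x * y = y * x := fun hx hy => hM _ (hXM hx) _ (hXM hy)
  have hcj : ∀ {c d}, c ∈ A → d ∈ A → c * ⁅d, u⁆ * c⁻¹ ∈ X := fun {c d} h h' => by
    rw [eq_mul_inv_iff_mul_eq.2 (hm c d).symm]
    exact mul_mem (hX (mul_mem h h')) (inv_mem (hX h))
  let B := A ⊓ centralizer (X : Set G)
  let Y := X ⊓ centralizer (A : Set G)
  have h1 : Nat.card ↥(B ⊔ X) ≤ Nat.card A := hA.2.2 _ (sup_le (inf_le_left.trans hA.1) (hXM.trans hMS))
    (elemAb_sup (elemAb_mono hA.2.1 inf_le_left) ⟨⟨⟨fun x y => Subtype.ext (hXc x.2 y.2)⟩⟩,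
      fun _ _ => pow_zero _⟩ inf_le_right)
  have h2 := card_sup_mul_card_inf (A := B) (B := X) (le_normalizer_of_le_centralizer inf_le_right)
  have h3 : Nat.card ↥(B ⊓ X) ≤ Nat.card Y := card_le_card_of_le
    (le_inf inf_le_right fun x hx y hy => hc hy hx.1.1)
  have h4 := (B.subgroupOf A).card_eq_card_quotient_mul_card_subgroup
  have h5 := (Y.subgroupOf X).card_eq_card_quotient_mul_card_subgroup
  rw [card_subgroupOf inf_le_left] at h4 h5
  have h6 : Nat.card (X ⧸ Y.subgroupOf X) ≤ Nat.card (A ⧸ B.subgroupOf A) := by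
    have hB : 0 < Nat.card B := Nat.card_pos
    have hY : 0 < Nat.card Y := Nat.card_pos
    refine Nat.le_of_mul_le_mul_right (c := Nat.card B * Nat.card Y) ?_ (by positivity)
    calc _ = Nat.card B * Nat.card X := by rw [h5]; ring
      _ ≤ Nat.card A * Nat.card Y := by rw [← h2]; exact Nat.mul_le_mul h1 h3
      _ = _ := by rw [h4]; ring
  let f : A ⧸ B.subgroupOf A → X ⧸ Y.subgroupOf X := fun q => ((⟨_, hX q.out.2⟩ : X) : X ⧸ _)
  have hf : Function.Injective f := fun q q' e => by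
    rw [← q.out_eq, ← q'.out_eq, QuotientGroup.eq]
    have e1 : ⁅(q.out : G), u⁆⁻¹ * ⁅(q'.out : G), u⁆ ∈ centralizer (A : Set G) :=
      (QuotientGroup.eq.1 e).2
    revert e1
    obtain ⟨c, hcA⟩ := q.out
    obtain ⟨d, hdA⟩ := q'.out
    intro e1
    have he : c⁻¹ * d ∈ A := mul_mem (inv_mem hcA) hdA
    refine ⟨he, ?_⟩
    change c⁻¹ * d ∈ centralizer (X : Set G)
    change ⁅c, u⁆⁻¹ * ⁅d, u⁆ ∈ centralizer (A : Set G) at e1
    generalize hg : c⁻¹ * d = g at he
    obtain rfl : d = c * g := by rw [← hg, mul_inv_cancel_left]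
    rw [hm, hXc (hcj hcA he) (hX hcA), inv_mul_cancel_left] at e1
    have e2 : ⁅g, u⁆ ∈ centralizer (A : Set G) := by
      have := e1 c hcA
      rw [show ⁅g, u⁆ = c⁻¹ * (c * ⁅g, u⁆ * c⁻¹ * c) by group, ← this, inv_mul_cancel_left]
      exact e1
    rw [centralizer_closure]
    rintro _ ⟨d, hd, rfl⟩
    have e3 := hm g d
    rw [hc he hd, hm, e2 d hd, mul_inv_cancel_right, hXc (hX he) (hX hd), mul_left_inj] at e3
    exact eq_mul_inv_iff_mul_eq.1 e3
  have ha2 : ⁅a, ⁅a, u⁆⁆ ∈ X := mul_mem (hcj ha ha) (inv_mem (hX ha))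
  obtain ⟨q, hq⟩ := (hf.bijective_of_nat_card_le h6).2 ((⟨_, ha2⟩ : X) : X ⧸ _)
  exact ⟨_, q.out.2, (QuotientGroup.eq.1 hq).2⟩

end CfsgLib.JAb
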