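import Mathlib
import Cfsg.Agent.Lib.JAb.Comb
import Cfsg.Agent.Lib.PLocal.ElemRep
import Cfsg.Agent.Lib.CFun.Chief
import Cfsg.Agent.Lib.HH.General

/-! Elementary abelian sections as modules, and the two module facts behind S3070. -/

set_option autoImplicit false
set_option linter.unusedSectionVars false

namespace CfsgLib.JAb

open Subgroup Cfsg CfsgLib.PLocal
open scoped commutatorElement

universe u

variable {G : Type u} [Group G] [Finite G] {p : ℕ} [hp : Fact p.Prime]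

/-- The section `P / Z` as the module `W`. -/
structure Bar (P Z : Subgroup G) {W : Type u} [AddCommGroup W] [Module (ZMod p) W]
    (ρ : Representation (ZMod p) G W) (φ : G → W) : Prop where
  mul : ∀ {x y}, x ∈ P → y ∈ P → φ (x * y) = φ x + φ y
  zero : ∀ {x}, x ∈ P → (φ x = 0 ↔ x ∈ Z)
  conj : ∀ g {x}, x ∈ P → ρ g (φ x) = φ (g * x * g⁻¹)
  surj : ∀ w, ∃ x ∈ P, φ x = w

theorem exists_bar {P Z : Subgroup G} [P.Normal] [Z.Normal] (h1 : ∀ x ∈ P, ∀ y ∈ P, ⁅x, y⁆ ∈ Z)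
    (h2 : ∀ x ∈ P, x ^ p ∈ Z) : ∃ (W : Type u) (_ : AddCommGroup W) (_ : Module (ZMod p) W)
      (_ : Finite W) (ρ : Representation (ZMod p) G W) (φ : G → W), Bar P Z ρ φ := by
  classical
  have hE : IsElementaryAbelian p (P.map (QuotientGroup.mk' Z)) := elemAb_iff.2 ⟨by
    rintro _ ⟨x, hx, rfl⟩ _ ⟨y, hy, rfl⟩
    rw [← commutatorElement_eq_one_iff_mul_comm, ← map_commutatorElement]
    exact (QuotientGroup.eq_one_iff _).2 (h1 x hx y hy), by
    rintro _ ⟨x, hx, rfl⟩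
    rw [← map_pow]
    exact (QuotientGroup.eq_one_iff _).2 (h2 x hx)⟩
  have hn : (P.map (QuotientGroup.mk' Z)).Normal :=
    Normal.map inferInstance _ (QuotientGroup.mk'_surjective Z)
  let φ : G → ElemMod hE := fun x =>
    if h : x ∈ P then ElemMod.ofG hE _ (mem_map_of_mem (QuotientGroup.mk' Z) h) else 0
  have hφ : ∀ {x}, x ∈ P → (φ x).toG = QuotientGroup.mk' Z x := fun h => by
    simp only [φ, dif_pos h, ElemMod.toG_ofG]
  refine ⟨ElemMod hE, inferInstance, inferInstance, inferInstance,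
    (ElemMod.rep hE (H := ⊤) le_normalizer_of_normal).comp
      ((QuotientGroup.mk' Z).codRestrict ⊤ fun _ => mem_top _), φ, fun hx hy => ?_, fun hx => ?_,
    fun g x hx => ?_, fun w => ?_⟩
  · rw [← ElemMod.toG_inj, ElemMod.toG_add, hφ hx, hφ hy, hφ (mul_mem hx hy), map_mul]
  · rw [← ElemMod.toG_eq_one, hφ hx]
    exact QuotientGroup.eq_one_iff _
  · rw [← ElemMod.toG_inj, hφ (Normal.conj_mem inferInstance x hx g), map_mul, map_mul, map_inv,
      ← hφ hx]
    rfl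
  · obtain ⟨x, hx, e⟩ := w.toG_mem
    exact ⟨x, hx, ElemMod.toG_injective ((hφ hx).trans e)⟩

theorem comm_mem {P : Subgroup G} [P.Normal] (g : G) {x : G} (hx : x ∈ P) : ⁅g, x⁆ ∈ P :=
  mul_mem (Normal.conj_mem inferInstance x hx g) (inv_mem hx)

namespace Bar

variable {P Z : Subgroup G} {W : Type u} [AddCommGroup W] [Module (ZMod p) W]
  {ρ : Representation (ZMod p) G W} {φ : G → W} (h : Bar P Z ρ φ) [P.Normal]

include h

theorem comm (g : G) {x : G} (hx : x ∈ P) : (ρ g - 1 : Module.End (ZMod p) W) (φ x) = φ ⁅g, x⁆ := by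
  rw [LinearMap.sub_apply, Module.End.one_apply, h.conj g hx, sub_eq_iff_eq_add,
    ← h.mul (comm_mem g hx) hx, commutatorElement_def, inv_mul_cancel_right]

theorem eq_one_iff {g : G} : ρ g = 1 ↔ ∀ x ∈ P, ⁅g, x⁆ ∈ Z := by
  rw [← sub_eq_zero]
  refine ⟨fun e x hx => (h.zero (comm_mem g hx)).1 (by rw [← h.comm g hx, e]; rfl), fun e => ?_⟩
  ext w
  obtain ⟨x, hx, rfl⟩ := h.surj w
  rw [h.comm g hx, (h.zero (comm_mem g hx)).2 (e x hx)]
  rfl

omit [P.Normal] h in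
theorem sub_pow {g : G} {k : ℕ} (e : ρ (g ^ p ^ k) = 1) : (ρ g - 1) ^ p ^ k = 0 := by
  rcases subsingleton_or_nontrivial W with hM | hM
  · exact Subsingleton.elim _ _
  have : CharP (Module.End (ZMod p) W) p :=
    charP_of_injective_algebraMap (algebraMap (ZMod p) _).injective p
  rw [sub_pow_char_pow_of_commute p k (Commute.one_right (ρ g)), ← map_pow, e, one_pow, sub_self]

end Bar

/-- A rank bound gives a nilpotency bound. -/
theorem Bar.pow_eq_zero {V B : Subgroup G} {W : Type u} [AddCommGroup W] [Module (ZMod p) W]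
    [Finite W] {ρ : Representation (ZMod p) G W} {φ : G → W} (h : Bar V ⊥ ρ φ) [V.Normal] {a : G}
    {k m : ℕ} (ha : ρ (a ^ p ^ k) = 1) (hB : B ≤ V) (hc : ∀ x ∈ B, ⁅a, x⁆ = 1)
    (hm : Nat.card V ≤ p ^ m * Nat.card B) : (ρ a - 1) ^ (m + 1) = 0 := by
  refine pow_succ_eq_zero ⟨_, Bar.sub_pow ha⟩ ?_
  set D : Module.End (ZMod p) W := ρ a - 1
  have h0 : φ 1 = 0 := (h.zero (one_mem _)).2 (one_mem _)
  have hi : ∀ {x y}, x ∈ V → y ∈ V → φ x = φ y → x = y := fun {x y} hx hy e => by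
    have e1 := h.mul (inv_mem hx) hx
    rw [inv_mul_cancel, h0, e, ← h.mul (inv_mem hx) hy, eq_comm,
      h.zero (mul_mem (inv_mem hx) hy), mem_bot] at e1
    exact inv_mul_eq_one.1 e1
  have h1 : Nat.card W ≤ Nat.card V := Nat.card_le_card_of_surjective (fun x : V => φ x) fun w => by
    obtain ⟨x, hx, e⟩ := h.surj w
    exact ⟨⟨x, hx⟩, e⟩
  have h2 : Nat.card B ≤ Nat.card (LinearMap.ker D) := Nat.card_le_card_of_injective
    (fun x => ⟨φ x, by rw [LinearMap.mem_ker, h.comm a (hB x.2), hc x x.2, h0]⟩)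
    fun x y e => Subtype.ext (hi (hB x.2) (hB y.2) (congrArg Subtype.val e))
  have h3 := LinearMap.finrank_range_add_finrank_ker D
  rw [Module.natCard_eq_pow_finrank (K := ZMod p), Nat.card_zmod] at h1
  rw [Module.natCard_eq_pow_finrank (K := ZMod p) (V := LinearMap.ker D), Nat.card_zmod] at h2
  have h4 := (h1.trans hm).trans (Nat.mul_le_mul_left _ h2)
  rw [← pow_add, Nat.pow_le_pow_iff_right hp.out.one_lt] at h4
  omega

/-- The Hall-Higman input. -/
theorem Bar.le_of_pow {P Z T R : Subgroup G} {W : Type u} [AddCommGroup W] [Module (ZMod p) W]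
    [Finite W] {ρ : Representation (ZMod p) G W} {φ : G → W} (h : Bar P Z ρ φ) [P.Normal]
    [T.Normal] [R.Normal] {q : ℕ} [hq : Fact q.Prime] (hpq : p ≠ q) (hT : ∀ t ∈ T, ρ t = 1)
    (hR : ∀ x ∈ R, ∃ j, x ^ q ^ j ∈ T) (hc : ∀ x ∈ R, ∀ y ∈ R, ⁅x, y⁆ ∈ T) {a : G} {k : ℕ}
    (ha : a ^ p ^ (k + 1) ∈ T) (hf : ∀ x ∈ R, ⁅a ^ p ^ k, x⁆ ∈ T → x ∈ T)
    (hne : ¬ ∀ x ∈ R, ρ x = 1) {s : ℕ} (hs : (ρ a - 1) ^ s = 0) : p ^ (k + 1) ≤ s := by
  let π := QuotientGroup.mk' T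
  have hRn : (R.map π).Normal := Normal.map inferInstance _ (QuotientGroup.mk'_surjective T)
  rcases HH.hh hp.out hpq (by
      rw [Ne, ZMod.natCast_eq_zero_iff, Nat.prime_dvd_prime_iff_eq hp.out hq.out]; exact hpq)
    (QuotientGroup.lift T ρ hT) (R.map π) (π a) k (by
      rintro ⟨_, x, hx, rfl⟩
      obtain ⟨j, hj⟩ := hR x hx
      exact ⟨j, Subtype.ext ((map_pow π _ _).symm.trans ((QuotientGroup.eq_one_iff _).2 hj))⟩)
    (le_normalizer_of_normal (mem_top _)) ((map_pow ρ _ _).symm.trans (hT _ ha)) (by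
      by_contra hcon
      push Not at hcon
      let f : R.map π → R.map π := fun x => ⟨⁅π a ^ p ^ k, x⁆, comm_mem _ x.2⟩
      have hinj : Function.Injective f := by
        rintro ⟨_, x, hx, rfl⟩ ⟨_, y, hy, rfl⟩ e
        have e1 : ⁅π a ^ p ^ k, π x⁆ = ⁅π a ^ p ^ k, π y⁆ := congrArg Subtype.val e
        refine Subtype.ext (QuotientGroup.eq.2 (hf _ (mul_mem (inv_mem hx) hy) ?_))
        rw [← QuotientGroup.eq_one_iff, ← QuotientGroup.mk'_apply, map_commutatorElement, map_pow,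
          map_mul, map_inv]
        change ⁅π a ^ p ^ k, (π x)⁻¹ * π y⁆ = 1
        generalize π a ^ p ^ k = b, π x = x, π y = y at e1
        simp only [commutatorElement_def] at e1 ⊢
        calc _ = b * x⁻¹ * b⁻¹ * (b * y * b⁻¹ * y⁻¹) * x := by group
          _ = 1 := by rw [← e1]; group
      refine hne fun x hx => ?_
      obtain ⟨y, e⟩ := Finite.injective_iff_surjective.1 hinj ⟨_, mem_map_of_mem π hx⟩
      have := (HH.comm_iff_apply_eq_one _ _ _).1 (hcon _ y.2)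
      rwa [← commutatorElement_def, show ⁅π a ^ p ^ k, (y : G ⧸ T)⁆ = π x from
        congrArg Subtype.val e] at this) with
    h2 | ⟨-, -, -, -, -, -, -, ⟨_, ⟨x, hx, rfl⟩, _, ⟨y, hy, rfl⟩, h2⟩, -⟩
  · exact h2.le_of_sub_one_pow hs
  · exact absurd ((HH.comm_iff_apply_eq_one ρ x y).2 (hT _ (hc x hx y hy))) h2

omit hp in
theorem comm_of_comm {x n : G} (hx : (orderOf x).Coprime p) {k : ℕ} (hc : ⁅x, n⁆ ^ p ^ k = 1)
    (h : x * ⁅x, n⁆ = ⁅x, n⁆ * x) : x * n = n * x := by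
  have h1 : ∀ j : ℕ, x ^ j * n = ⁅x, n⁆ ^ j * n * x ^ j := fun j => by
    induction j with
    | zero => simp
    | succ j ih =>
      rw [pow_succ', mul_assoc, ih, ← mul_assoc, ← mul_assoc, (Commute.pow_right h j).eq, pow_succ,
        commutatorElement_def]
      group
  have h2 := h1 (orderOf x)
  rw [pow_orderOf_eq_one, one_mul, mul_one, eq_comm, mul_eq_right] at h2
  rw [← commutatorElement_eq_one_iff_mul_comm, ← orderOf_eq_one_iff]
  exact Nat.eq_one_of_dvd_coprimes (hx.pow_right k) (orderOf_dvd_of_pow_eq_one h2)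
    (orderOf_dvd_of_pow_eq_one hc)

/-- The critical section. -/
theorem exists_chief {T R : Subgroup G} [T.Normal] [R.Normal] (hT : IsPGroup p T)
    (hne : ∃ x ∈ R, (orderOf x).Coprime p ∧ x ∉ centralizer (T : Set G)) :
    ∃ P Z : Subgroup G, IsChiefFactor P Z ∧ P ≤ T ∧ Z ≤ centralizer (P : Set G) ∧
      ¬ ∀ x ∈ R, ∀ y ∈ P, ⁅x, y⁆ ∈ Z := by
  let K : Set G := {x | x ∈ R ∧ (orderOf x).Coprime p}
  have hK : ∀ g, ∀ x ∈ K, g * x * g⁻¹ ∈ K := fun g x hx =>
    ⟨Normal.conj_mem inferInstance _ hx.1 g, by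
      rw [← MulAut.conj_apply, MulEquiv.orderOf_eq]; exact hx.2⟩
  have hCn : (centralizer K).Normal := ⟨fun c hc g x hx => by
    have := hc _ (hK g⁻¹ x hx)
    calc _ = g * (g⁻¹ * x * g⁻¹⁻¹ * c) * g⁻¹ := by group
      _ = _ := by rw [this]; group⟩
  have hKn : (closure K).Normal := ⟨fun x hx g => by
    rw [← MulAut.conj_apply, ← MonoidHom.coe_coe, ← mem_comap]
    exact (closure_le (comap _ (closure K))).2 (fun y hy => subset_closure (hK g y hy)) hx⟩
  obtain ⟨P, ⟨hPn, hPT, hP⟩, hmin⟩ := exists_minimal_of_wellFoundedLT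
    (fun N : Subgroup G => N.Normal ∧ N ≤ T ∧ ¬ N ≤ centralizer K) ⟨T, inferInstance, le_rfl, by
      obtain ⟨x, h1, h2, h3⟩ := hne
      exact fun h => h3 fun t ht => (h ht x ⟨h1, h2⟩).symm⟩
  have hlt : ∀ N : Subgroup G, N.Normal → N ≤ P → N ≤ centralizer K ∨ N = P := fun N h1 h2 =>
    (em _).imp id fun h3 => le_antisymm h2 (hmin ⟨h1, h2.trans hPT, h3⟩ h2)
  have hkey : ¬ ∀ x ∈ K, ∀ y ∈ P, ⁅x, y⁆ ∈ centralizer K := fun h => hP fun y hy x hx => by
    obtain ⟨k, hk⟩ := hT ⟨_, hPT (comm_mem x hy)⟩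
    exact comm_of_comm hx.2 (congrArg Subtype.val hk) (h x hx y hy x hx)
  refine ⟨P, P ⊓ centralizer K, ⟨inf_lt_left.2 hP, hPn, inferInstance, fun N h1 h2 h3 =>
    (hlt N h1 h3).imp (fun h4 => le_antisymm (le_inf h3 h4) h2) id⟩, hPT, ?_,
    fun h => hkey fun x hx y hy => (h x hx.1 y hy).2⟩
  rcases hlt (P ⊓ closure K) inferInstance inf_le_left with h | h
  · refine (hkey fun x hx y hy => h ⟨comm_mem x hy, ?_⟩).elim
    rw [commutatorElement_def, mul_assoc, mul_assoc, ← mul_assoc y]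
    exact mul_mem (subset_closure hx) (hKn.conj_mem _ (inv_mem (subset_closure hx)) y)
  · rw [← centralizer_closure]
    exact inf_le_right.trans (centralizer_le (h.ge.trans inf_le_right))

end CfsgLib.JAb
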