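import Mathlib
import Cfsg.Agent.Lib.JAb.Bar
import Cfsg.Agent.Lib.Frob.Complement

/-! The core of Glauberman's criterion (S3070): no abelian subgroup of largest order acts
semiregularly on an abelian `q`-section, for `p ≥ 5`. -/

set_option autoImplicit false
set_option linter.unusedSectionVars false

namespace CfsgLib.JAb

open Subgroup Cfsg CfsgLib.PLocal
open scoped commutatorElement

universe u

variable {G : Type u} [Group G] [Finite G] {p : ℕ} [hp : Fact p.Prime]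

theorem exists_gen {T R A : Subgroup G} [T.Normal] [R.Normal] (hA : IsPGroup p A)
    (hc : IsMulCommutative A) (hf : ∀ c ∈ A, c ∉ T → ∀ x ∈ R, ⁅c, x⁆ ∈ T → x ∈ T) (hAT : ¬ A ≤ T)
    (hRT : ¬ R ≤ T) : ∃ a ∈ A, ∃ k, a ^ p ^ (k + 1) ∈ T ∧ a ^ p ^ k ∉ T ∧
      Nat.card A = p ^ (k + 1) * Nat.card ↥(T ⊓ A) ∧ ∀ c ∈ A, ∃ i : ℕ, ∃ t ∈ T, c = a ^ i * t := by
  let π := QuotientGroup.mk' T
  have hb : ∀ {X : Subgroup G}, X.map π = ⊥ ↔ X ≤ T := by
    intro X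
    rw [Subgroup.map_eq_bot_iff, QuotientGroup.ker_mk']
  have hRn : (R.map π).Normal := Normal.map inferInstance _ (QuotientGroup.mk'_surjective T)
  have hcyc : IsCyclic (A.map π) := (Frob.pqCond_of_fpf (K := R.map π) (mt hb.1 hRT)
    le_normalizer_of_normal (by
      rintro _ ⟨c, hc, rfl⟩ h1
      rw [eq_bot_iff]
      rintro _ ⟨⟨x, hx, rfl⟩, h2⟩
      refine (QuotientGroup.eq_one_iff _).2 (hf c hc (mt (QuotientGroup.eq_one_iff _).2 h1) x hx ?_)
      rw [← QuotientGroup.eq_one_iff, ← QuotientGroup.mk'_apply, map_commutatorElement,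
        commutatorElement_eq_one_iff_mul_comm]
      exact h2 _ rfl)).isCyclic_of_comm inferInstance
  obtain ⟨⟨_, a, ha, rfl⟩, hg⟩ := hcyc.exists_monoid_generator
  obtain ⟨m, hm⟩ := (hA.map π).exists_card_eq
  obtain rfl | ⟨k, rfl⟩ := m.eq_zero_or_eq_succ_pred.imp id fun h => (⟨_, h⟩ : ∃ k, m = k + 1)
  · exact (hAT (hb.1 (card_eq_one.1 hm))).elim
  have ho : orderOf (π a) = p ^ (k + 1) := by
    rw [← hm, ← orderOf_eq_card_of_forall_mem_powers hg, ← Subgroup.orderOf_coe]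
  have he : ∀ j, a ^ j ∈ T ↔ p ^ (k + 1) ∣ j := fun j => by
    rw [← ho, orderOf_dvd_iff_pow_eq_one, ← map_pow]
    exact (QuotientGroup.eq_one_iff _).symm
  refine ⟨a, ha, k, (he _).2 dvd_rfl, fun h => ?_, ?_, fun c hc => ?_⟩
  · exact absurd ((Nat.pow_dvd_pow_iff_le_right hp.out.one_lt).1 ((he _).1 h)) (by omega)
  · rw [card_eq_relIndex_mul T A, ← hm, ← relIndex_ker, QuotientGroup.ker_mk']
  · obtain ⟨i, hi⟩ := hg ⟨_, mem_map_of_mem π hc⟩
    exact ⟨i, _, QuotientGroup.eq.1 ((map_pow π a i).trans (congrArg Subtype.val hi)), by group⟩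

section two

variable {P Z : Subgroup G} (hZ : Z ≤ centralizer (P : Set G))
  (hc : ∀ x ∈ P, ∀ y ∈ P, ⁅x, y⁆ ∈ Z) {x x' y y' : G}

include hZ hc

theorem cm_left (hx : x ∈ P) (hx' : x' ∈ P) (hy : y ∈ P) : ⁅x * x', y⁆ = ⁅x', y⁆ * ⁅x, y⁆ := by
  rw [show ⁅x * x', y⁆ = x * ⁅x', y⁆ * x⁻¹ * ⁅x, y⁆ by simp only [commutatorElement_def]; group,
    hZ (hc _ hx' _ hy) x hx, mul_inv_cancel_right]

theorem cm_right (hx : x ∈ P) (hy : y ∈ P) (hy' : y' ∈ P) : ⁅x, y * y'⁆ = ⁅x, y⁆ * ⁅x, y'⁆ := by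
  rw [← commutatorElement_inv, cm_left hZ hc hy hy' hx, mul_inv_rev, commutatorElement_inv,
    commutatorElement_inv]

theorem cm_pow (hx : x ∈ P) (hy : y ∈ P) (j : ℕ) : ⁅x ^ j, y⁆ = ⁅x, y⁆ ^ j := by
  induction j with
  | zero => simp
  | succ j ih => rw [pow_succ', cm_left hZ hc hx (pow_mem hx j) hy, ih, pow_succ]

omit hc in
theorem cm_one (hx : x ∈ Z) (hy : y ∈ P) : ⁅x, y⁆ = 1 :=
  commutatorElement_eq_one_iff_mul_comm.2 (hZ hx y hy).symm

end two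

omit [Finite G] in
theorem conj_comm (g x y : G) : g * ⁅x, y⁆ * g⁻¹ = ⁅⁅g, x⁆ * x, ⁅g, y⁆ * y⁆ := by
  simp only [commutatorElement_def]
  group

/-- The late iterated commutators commute. -/
theorem comm_iter {T S A P Z : Subgroup G} [T.Normal] (hp5 : 5 ≤ p) (hTS : T ≤ S)
    (hT : IsPGroup p T) (hA : A ∈ maxElemIn 0 S) (hP : IsChiefFactor P Z) (hPT : P ≤ T)
    (hZ : Z ≤ centralizer (P : Set G)) {a : G} (ha : a ∈ A) {k : ℕ} (ha1 : a ^ p ^ (k + 1) ∈ T)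
    (hcard : Nat.card A = p ^ (k + 1) * Nat.card ↥(T ⊓ A)) {u : ℕ → G} (hu : ∀ i, u i ∈ P)
    (hs : ∀ i, u (i + 1) = ⁅a, u i⁆) (hn : ∀ i, p ^ (k + 1) ≤ i → u i ∈ Z) {i j : ℕ}
    (hi : p ^ (k + 1) ≤ i + 3) (hj : p ^ (k + 1) ≤ j + 3) : u i * u j = u j * u i := by
  have := hP.2.1
  have hTZ : ∀ t ∈ T, ∀ x ∈ P, ⁅t, x⁆ ∈ Z := fun t ht x hx => CFun.chief_commutator_le hP hT hPT
    (Subgroup.commutator_comm T P ▸ commutator_mem_commutator ht hx)
  have hc : ∀ x ∈ P, ∀ y ∈ P, ⁅x, y⁆ ∈ Z := fun x hx => hTZ x (hPT hx)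
  let V := omegaOne p (T ⊓ centralizer (T : Set G))
  have hVe : IsElementaryAbelian p V := elemAb_omegaOne (isMulCommutative_inf_centralizer T)
  have hVT : V ≤ T ⊓ centralizer (T : Set G) := omegaOne_le _
  have hVn : V.Normal := normalizer_eq_top_iff.1 (eq_top_iff.2
    (le_normalizer_of_normal.trans (normalizer_le_normalizer_omegaOne _)))
  have hV : ∀ {x y}, x ∈ P → y ∈ P → ⁅x, y⁆ ∈ V := fun {x y} hx hy => by
    refine mem_omegaOne ⟨hPT (comm_mem x hy), fun t ht => ?_⟩ ?_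
    · have h1 := hTZ t ht x hx
      have h2 := hTZ t ht y hy
      rw [← mul_inv_eq_iff_eq_mul, conj_comm, cm_left hZ hc (hP.1.le h1) hx
        (mul_mem (hP.1.le h2) hy), cm_one hZ h1 (mul_mem (hP.1.le h2) hy), mul_one,
        cm_right hZ hc hx (hP.1.le h2) hy, ← commutatorElement_inv, cm_one hZ h2 hx, inv_one, one_mul]
    · rw [← cm_pow hZ hc hx hy, cm_one hZ (CFun.chief_pow_mem hP (hT.to_le hPT) hx) hy]
  obtain ⟨W, _, _, _, σ, ψ, h⟩ := exists_bar (p := p) (P := V) (Z := ⊥)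
    (fun x hx y hy => commutatorElement_eq_one_iff_mul_comm.2 (elemAb_comm hVe hx hy)) hVe.2
  have h0 : ψ 1 = 0 := (h.zero (one_mem _)).2 (one_mem _)
  have hE : (σ a - 1) ^ (k + 1 + 1) = 0 := by
    refine h.pow_eq_zero (B := V ⊓ (T ⊓ A)) (k := k + 1) (h.eq_one_iff.2 fun x hx =>
      commutatorElement_eq_one_iff_mul_comm.2 ((hVT hx).2 _ ha1)) inf_le_left
      (fun x hx => commutatorElement_eq_one_iff_mul_comm.2 (elemAb_comm hA.2.1 ha hx.2.2)) ?_
    have h1 : V ≤ centralizer ((T ⊓ A : Subgroup G) : Set G) :=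
      fun v hv t ht => (hVT hv).2 t ht.1
    have h2 := card_sup_mul_card_inf (le_normalizer_of_le_centralizer h1)
    have h3 := hA.2.2 _ (sup_le (hVT.trans (inf_le_left.trans hTS)) (inf_le_left.trans hTS))
      (elemAb_sup ⟨hVe.1, fun _ _ => pow_zero _⟩ (elemAb_mono hA.2.1 inf_le_right) h1)
    refine Nat.le_of_mul_le_mul_right (c := Nat.card ↥(T ⊓ A)) ?_ Nat.card_pos
    rw [← h2, mul_right_comm, ← hcard]
    exact Nat.mul_le_mul_right _ h3
  have key := beta_iso (β := fun i j l => ((σ a - 1) ^ l : Module.End (ZMod p) W) (ψ ⁅u i, u j⁆))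
    (fun i j l => ?_) (fun i j l e => by rw [cm_one hZ (hn i e) (hu j), h0, map_zero])
    (fun i j l => by
      rw [eq_neg_iff_add_eq_zero, ← map_add, ← h.mul (hV (hu i) (hu j)) (hV (hu j) (hu i)),
        ← commutatorElement_inv, inv_mul_cancel, h0, map_zero])
    (fun i l => by rw [commutatorElement_self, h0, map_zero])
    (fun i j l e => by rw [pow_eq_zero_of_le e hE, LinearMap.zero_apply]) (exp_cases hp5) hi hj
  · rw [pow_zero, Module.End.one_apply, h.zero (hV (hu i) (hu j)), mem_bot] at key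
    exact commutatorElement_eq_one_iff_mul_comm.1 key
  rw [pow_succ, Module.End.mul_apply, ← map_add, ← map_add, LinearMap.sub_apply,
    Module.End.one_apply, h.conj a (hV (hu i) (hu j)), conj_comm, ← hs, ← hs,
    cm_left hZ hc (hu _) (hu _) (mul_mem (hu _) (hu _)),
    h.mul (hV (hu _) (mul_mem (hu _) (hu _))) (hV (hu _) (mul_mem (hu _) (hu _))),
    cm_right hZ hc (hu _) (hu _) (hu _), cm_right hZ hc (hu _) (hu _) (hu _),
    h.mul (hV (hu _) (hu _)) (hV (hu _) (hu _)), h.mul (hV (hu _) (hu _)) (hV (hu _) (hu _))]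
  congr 1
  abel

theorem core {T R S A : Subgroup G} [T.Normal] [R.Normal] {q : ℕ} [Fact q.Prime] (hp5 : 5 ≤ p)
    (hpq : p ≠ q) (hS : IsPGroup p S) (hTS : T ≤ S) (hA : A ∈ maxElemIn 0 S)
    (hR : ∀ x ∈ R, ∃ j, x ^ q ^ j ∈ T) (hc : ∀ x ∈ R, ∀ y ∈ R, ⁅x, y⁆ ∈ T)
    (hf : ∀ c ∈ A, c ∉ T → ∀ x ∈ R, ⁅c, x⁆ ∈ T → x ∈ T) (hAT : ¬ A ≤ T) (hRT : ¬ R ≤ T)
    (hne : ∃ x ∈ R, (orderOf x).Coprime p ∧ x ∉ centralizer (T : Set G)) : False := by
  have hT := hS.to_le hTS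
  obtain ⟨a, ha, k, ha1, ha2, hcard, hgen⟩ := exists_gen (hS.to_le hA.1) hA.2.1.1 hf hAT hRT
  obtain ⟨P, Z, hP, hPT, hZ, hRP⟩ := exists_chief hT hne
  have := hP.2.1
  have := hP.2.2.1
  have hTZ : ∀ t ∈ T, ∀ x ∈ P, ⁅t, x⁆ ∈ Z := fun t ht x hx => CFun.chief_commutator_le hP hT hPT
    (Subgroup.commutator_comm T P ▸ commutator_mem_commutator ht hx)
  obtain ⟨W, _, _, _, ρ, φ, h⟩ := exists_bar (p := p) (fun x hx => hTZ x (hPT hx))
    fun x hx => CFun.chief_pow_mem hP (hT.to_le hPT) hx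
  have hρ : ∀ t ∈ T, ρ t = 1 := fun t ht => h.eq_one_iff.2 (hTZ t ht)
  obtain ⟨n, hn⟩ : ∃ n, p ^ (k + 1) = n + 4 := Nat.exists_eq_add_of_le' (by
    rcases exp_cases (k := k) hp5 with e | e <;> omega)
  set D : Module.End (ZMod p) W := ρ a - 1 with hD
  have hD1 : D ^ (n + 4) = 0 := hn ▸ Bar.sub_pow (hρ _ ha1)
  obtain ⟨w, hw, hw'⟩ : ∃ w ∈ P, (D ^ (n + 3)) (φ w) ≠ 0 := by
    by_contra e
    push Not at e
    have := h.le_of_pow hpq hρ hR hc ha1 (hf _ (pow_mem ha _) ha2)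
      (fun e => hRP fun x hx => h.eq_one_iff.1 (e x hx)) (s := n + 3) (LinearMap.ext fun v => by
        obtain ⟨x, hx, rfl⟩ := h.surj v
        exact e x hx)
    omega
  let u : ℕ → G := fun i => (fun x => ⁅a, x⁆)^[i] w
  have hs : ∀ i, u (i + 1) = ⁅a, u i⁆ := fun i => Function.iterate_succ_apply' _ _ _
  have hu : ∀ i, u i ∈ P := fun i => by
    induction i with
    | zero => exact hw
    | succ i ih => exact hs i ▸ comm_mem a ih
  have hφ : ∀ i, φ (u i) = (D ^ i) (φ w) := fun i => by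
    induction i with
    | zero => rfl
    | succ i ih => rw [hs, ← h.comm a (hu i), ih, pow_succ', Module.End.mul_apply]
  have hcm := fun i j => comm_iter hp5 hTS hT hA hP hPT hZ ha ha1 hcard hu hs (fun i hi =>
    (h.zero (hu i)).1 (by rw [hφ, pow_eq_zero_of_le (hn ▸ hi) hD1]; rfl)) (i := i) (j := j)
  let M := closure ({x | ∃ i, n + 1 ≤ i ∧ u i = x} ∪ Z)
  have hZM : Z ≤ M := fun x hx => subset_closure (.inr hx)
  have huM : ∀ i, n + 1 ≤ i → u i ∈ M := fun i hi => subset_closure (.inl ⟨i, hi, rfl⟩)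
  have hMe : IsElementaryAbelian 0 M := elemAb_closure (by
    rintro _ (⟨i, hi, rfl⟩ | hx) _ (⟨j, hj, rfl⟩ | hy)
    exacts [hcm i j (by omega) (by omega), hZ hy _ (hu i), (hZ hx _ (hu j)).symm,
      hZ hy _ (hP.1.le hx)]) fun _ _ => pow_zero _
  have hMP : M ≤ P := (closure_le _).2 (by
    rintro _ (⟨i, -, rfl⟩ | hx)
    exacts [hu i, hP.1.le hx])
  have haM : M ≤ comap (MulAut.conj a).toMonoidHom M := (closure_le _).2 (by
    rintro x (⟨i, hi, rfl⟩ | hx)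
    · change a * u i * a⁻¹ ∈ M
      rw [← inv_mul_cancel_right (a * u i * a⁻¹) (u i), ← commutatorElement_def, ← hs]
      exact mul_mem (huM _ (by omega)) (huM i hi)
    · exact hZM (Normal.conj_mem inferInstance x hx a))
  have hm : ∀ c d : G, ⁅c * d, u n⁆ = c * ⁅d, u n⁆ * c⁻¹ * ⁅c, u n⁆ := fun c d => by
    simp only [commutatorElement_def]; group
  have hpw : ∀ i : ℕ, ⁅a ^ i, u n⁆ ∈ M := fun i => by
    induction i with
    | zero => simp
    | succ i ih => exact pow_succ' a i ▸ hm _ _ ▸ mul_mem (haM ih) (hs n ▸ huM _ le_rfl)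
  obtain ⟨c, hcA, hy⟩ := thompson_count hA (hMP.trans (hPT.trans hTS))
    (fun x hx y hy => elemAb_comm hMe hx hy) (u := u n) (fun c hc => by
      obtain ⟨i, t, ht, rfl⟩ := hgen c hc
      exact hm _ _ ▸ mul_mem (hZM (Normal.conj_mem inferInstance _ (hTZ t ht _ (hu n)) _)) (hpw i)) ha
  obtain ⟨i, t, ht, rfl⟩ := hgen c hcA
  set y := ⁅a ^ i * t, u n⁆⁻¹ * ⁅a, ⁅a, u n⁆⁆ with hy'
  have hyP : y ∈ P := mul_mem (inv_mem (comm_mem _ (hu n))) (comm_mem _ (comm_mem _ (hu n)))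
  have h1 : D (φ y) = 0 := by
    rw [h.comm a hyP, commutatorElement_eq_one_iff_mul_comm.2 (hy a ha)]
    exact (h.zero (one_mem _)).2 (one_mem _)
  have h2 := h.mul (comm_mem (a ^ i * t) (hu n)) hyP
  rw [hy', mul_inv_cancel_left, ← hy', ← h.comm a (comm_mem _ (hu n)), ← h.comm a (hu n),
    ← h.comm _ (hu n), map_mul, hρ t ht, mul_one, map_pow, ← hD] at h2
  have h3 := congrArg D h2
  have h4 : D * ρ a ^ i = ρ a ^ i * D :=
    (((Commute.refl _).sub_left (Commute.one_left _)).pow_right i).eq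
  rw [map_add, h1, add_zero, LinearMap.sub_apply (ρ a ^ i), map_sub, ← Module.End.mul_apply D (ρ a ^ i), h4,
    Module.End.mul_apply, Module.End.one_apply] at h3
  have : NeZero (2 : ZMod p) := ⟨fun e => by
    have := Nat.le_of_dvd two_pos ((ZMod.natCast_eq_zero_iff 2 p).1 (by exact_mod_cast e))
    omega⟩
  have h5 : ∀ j, (D ^ (n + (j + 1))) (φ w) = D ((D ^ (n + j)) (φ w)) := fun j => by
    rw [← add_assoc, pow_succ', Module.End.mul_apply]
  refine hw' ?_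
  rw [h5, h5, h5, add_zero, ← hφ]
  refine sq_apply_eq_zero (α := ρ a) (fun x => by simp [hD]) ?_ h3.symm
  rw [hφ, ← add_zero n, ← h5, ← h5, ← h5, ← h5]
  exact LinearMap.congr_fun hD1 _

end CfsgLib.JAb
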