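import Mathlib
import Cfsg.Agent.Lib.JAb.Core
import Cfsg.Agent.Lib.ZJ.Engel
import Cfsg.Agent.Lib.ZJ.NPCClass

/-! Glauberman's normal `p`-complement criterion for the abelian Thompson subgroup, `p ≥ 5`. -/

set_option autoImplicit false
set_option linter.unusedSectionVars false

namespace CfsgLib.JAb

open Subgroup Cfsg CfsgLib.PLocal CfsgLib.Transfer CfsgLib.Tech
open scoped commutatorElement

universe u

variable {G : Type u} [Group G] [Finite G] {p : ℕ} [hp : Fact p.Prime]

theorem exists_semiregular {K A : Subgroup G} [IsMulCommutative K] (hA : IsMulCommutative A)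
    (hAK : A ≤ normalizer (K : Set G)) (hc : (Nat.card A).Coprime (Nat.card K))
    (hne : ¬ A ≤ centralizer (K : Set G)) : ∃ Q ≤ K, A ≤ normalizer (Q : Set G) ∧
      ¬ A ≤ centralizer (Q : Set G) ∧
      ∀ c ∈ A, c ∉ centralizer (Q : Set G) → ∀ x ∈ Q, c * x = x * c → x = 1 := by
  obtain ⟨Q, ⟨h1, h2, h3⟩, hmin⟩ := exists_minimal_of_wellFoundedLT (fun Q : Subgroup G =>
    Q ≤ K ∧ A ≤ normalizer (Q : Set G) ∧ ¬ A ≤ centralizer (Q : Set G)) ⟨K, le_rfl, hAK, hne⟩
  have hcQ := hc.coprime_dvd_right (card_dvd_of_le h1)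
  have h4 := Coprime.commutator_le_of_le_normalizer h2
  have h5 : Q ≤ ⁅Q, A⁆ := hmin ⟨h4.trans h1, normalizer_commutator_ge_right _ _, fun h => h3 (by
    rw [le_centralizer_iff, ← commutator_eq_bot_iff_le_centralizer] at h ⊢
    exact Coprime.commutator_eq_bot_of_commutator_commutator_eq_bot h2 hcQ h)⟩ h4
  have : IsMulCommutative Q := ⟨⟨fun x y => Subtype.ext
    (ZJ.mul_comm_of_isMulCommutative inferInstance (h1 x.2) (h1 y.2))⟩⟩
  have h6 := Coprime.centralizer_inf_commutator_eq_bot h2 hcQ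
  refine ⟨Q, h1, h2, h3, fun c hc hc' x hx e => ?_⟩
  have h7 : A ≤ centralizer ((Q ⊓ centralizer {c} : Subgroup G) : Set G) := by
    by_contra h
    refine hc' fun y hy => ((hmin ⟨inf_le_left.trans h1, Coprime.le_normalizer_inf h2 ?_, h⟩
      inf_le_left hy).2 c rfl).symm
    intro a ha
    have h8 : a ∈ centralizer {c} :=
      mem_centralizer_singleton_iff.2 (ZJ.mul_comm_of_isMulCommutative hA ha hc)
    exact le_normalizer h8
  exact mem_bot.1 (h6.le ⟨le_centralizer_iff.1 h7 ⟨hx, mem_centralizer_singleton_iff.2 e.symm⟩, h5 hx⟩)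

theorem le_pCore_of_minCex (hp5 : 5 ≤ p) {S : Sylow p G} (hM : NPCMinCex p G S) {A : Subgroup G}
    (hA : A ∈ maxElemIn 0 (S : Subgroup G)) : A ≤ pCore p G := by
  by_contra hAT
  let π := QuotientGroup.mk' (pCore p G)
  have hs := QuotientGroup.mk'_surjective (pCore p G)
  have h1 : ∀ {x}, π x = 1 ↔ x ∈ pCore p G := QuotientGroup.eq_one_iff _
  have hTS : pCore p G ≤ S := PSolv.pCore_le_sylow S
  have hKn := pResidual_normal p (G ⧸ pCore p G)
  have hK := hasNormalPComplement_iff_coprime.1 hM.quot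
  have hS := S.isPGroup'.map π
  have hm := ZJ.isCoatom_map_of_ker_le hs (by rwa [QuotientGroup.ker_mk']) hM.coatom
  have hKc := ZJ.isMulCommutative_of_isCoatom hK hS hm
  have hAp := (S.isPGroup'.to_le hA.1).map π
  have hAc : IsMulCommutative (A.map π) := have := hA.2.1.1; inferInstance
  have hne : ¬ A.map π ≤ centralizer (pResidual p (G ⧸ pCore p G) : Set (G ⧸ pCore p G)) := by
    intro h
    have hn : ((S : Subgroup G).map π ⊓ centralizer (pResidual p (G ⧸ pCore p G) :
        Set (G ⧸ pCore p G))).Normal := by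
      rw [← normalizer_eq_top_iff, eq_top_iff, ← pResidual_sup_sylow (S.mapSurjective hs)]
      exact sup_le ((le_centralizer_iff.2 inf_le_right).trans (centralizer_le_normalizer _))
        (Coprime.le_normalizer_inf le_normalizer le_normalizer_of_normal)
    exact hAT fun x hx => h1.1 (mem_bot.1 (Core.pCore_quotient_pCore p G ▸ Core.le_pCore
      (hS.to_le inf_le_left) ⟨mem_map_of_mem π (hA.1 hx), h (mem_map_of_mem π hx)⟩))
  obtain ⟨q, hq, hpq, hKq⟩ := ZJ.exists_isPGroup_of_isCoatom hK hS hm fun e => hne (by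
    rw [e, le_centralizer_iff]; exact bot_le)
  have : Fact q.Prime := ⟨hq⟩
  obtain ⟨Q, hQK, hAQ, hne', hf⟩ := exists_semiregular hAc le_normalizer_of_normal (by
    obtain ⟨k, hk⟩ := hAp.exists_card_eq
    exact hk ▸ hK.symm.pow_left k) hne
  let B := A.map π ⊓ centralizer (Q : Set (G ⧸ pCore p G))
  let H := (normalizer (Q : Set (G ⧸ pCore p G)) ⊓ normalizer (B : Set (G ⧸ pCore p G))).comap π
  have hBQ : ∀ {x}, x ∈ B → x ∈ Q → x = 1 := fun hx hx' => mem_bot.1
    ((Core.isPGroup_inf_eq_bot_of_coprime hAp hK).le ⟨hx.1, hQK hx'⟩)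
  have hAH : A ≤ H := map_le_iff_le_comap.1 (le_inf hAQ (le_normalizer_of_le_centralizer
    fun x hx y hy => ZJ.mul_comm_of_isMulCommutative hAc hy.1 hx))
  have hQc : ∀ {x y}, x ∈ Q → y ∈ Q → ⁅x, y⁆ = 1 := fun hx hy =>
    commutatorElement_eq_one_iff_mul_comm.2 (ZJ.mul_comm_of_isMulCommutative hKc (hQK hx) (hQK hy))
  have hQH : Q.comap π ≤ H := comap_mono (le_inf le_normalizer (le_normalizer_of_le_centralizer
    (le_centralizer_iff.1 inf_le_right)))
  have hn1 : ((B.comap π).subgroupOf H).Normal := normal_subgroupOf_of_le_normalizer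
    ((comap_mono inf_le_right).trans (le_normalizer_comap π))
  have hn2 : ((Q.comap π).subgroupOf H).Normal := normal_subgroupOf_of_le_normalizer
    ((comap_mono inf_le_left).trans (le_normalizer_comap π))
  obtain ⟨x, hx, hx1, hxp⟩ : ∃ x : G, π x ∈ Q ∧ π x ≠ 1 ∧ (orderOf x).Coprime p := by
    obtain ⟨y, hy, hy1⟩ : ∃ y ∈ Q, y ≠ 1 := by
      by_contra h
      push Not at h
      exact hne' fun _ _ y hy => by rw [h y hy, one_mul, mul_one]
    obtain ⟨x, rfl⟩ := hs y
    obtain ⟨k, hk⟩ := exists_pow_coprime (p := p) x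
    refine ⟨_, by rw [map_pow]; exact pow_mem hy _, fun e => hy1 ?_, hk⟩
    rw [map_pow] at e
    exact orderOf_eq_one_iff.1 (Nat.eq_one_of_dvd_coprimes (hK.pow_right k)
      (Subgroup.orderOf_dvd_natCard _ (hQK hy)) (orderOf_dvd_of_pow_eq_one e))
  refine core (T := (B.comap π).subgroupOf H) (R := (Q.comap π).subgroupOf H)
    (S := (S : Subgroup G).subgroupOf H) (A := A.subgroupOf H) hp5 hpq
    (S.isPGroup'.comap_of_injective _ H.subtype_injective) (comap_mono ?_)
    (comap_mem_maxElemIn H.subtype_injective ?_) (fun y hy => ?_) (fun y hy z hz => ?_)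
    (fun c hc hc' y hy e => ?_) (fun h => hne' ?_) (fun h => hx1 (hBQ (h (x := ⟨x, hQH hx⟩) hx) hx))
    ⟨⟨x, hQH hx⟩, hx, by rwa [← Subgroup.orderOf_coe], fun h => hx1 (h1.2 (hM.char_p fun t ht => ?_))⟩
  · refine (comap_mono (inf_le_left.trans (map_mono hA.1))).trans ?_
    rw [comap_map_eq, QuotientGroup.ker_mk', sup_eq_left.2 hTS]
  · rw [subgroupOf_map_subtype]
    exact (mem_maxElemIn_iff_of_le inf_le_left hA (le_inf hA.1 hAH)).2 ⟨hA, le_inf hA.1 hAH⟩
  · obtain ⟨j, hj⟩ := hKq ⟨_, hQK hy⟩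
    refine ⟨j, ?_⟩
    change π (y ^ q ^ j) ∈ B
    rw [map_pow, show π y ^ q ^ j = 1 from congrArg Subtype.val hj]
    exact one_mem _
  · change π ⁅(y : G), (z : G)⁆ ∈ B
    rw [map_commutatorElement, hQc (x := π y) (y := π z) hy hz]
    exact one_mem _
  · change π ⁅(c : G), (y : G)⁆ ∈ B at e
    change π y ∈ B
    rw [map_commutatorElement] at e
    have hc2 : π c ∈ A.map π := mem_map_of_mem π hc
    rw [hf _ hc2 (fun h => hc' ⟨hc2, h⟩) (π y) hy (commutatorElement_eq_one_iff_mul_comm.1 (hBQ e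
      (mul_mem ((mem_normalizer_iff.1 (hAQ hc2) _).1 hy) (inv_mem hy))))]
    exact one_mem _
  · rintro _ ⟨c, hc, rfl⟩
    exact (h (x := ⟨c, hAH hc⟩) hc).2
  · have ht' : π t = 1 := h1.2 ht
    exact congrArg Subtype.val (h ⟨t, hQH (show π t ∈ Q from ht' ▸ one_mem _)⟩
      (show π t ∈ B from ht' ▸ one_mem _))

theorem npc_of_normalizer (hp5 : 5 ≤ p) (P : Sylow p G)
    (hJ : HasNormalPComplement p (normalizer (thompsonSubgroupOf 0 (P : Subgroup G) : Set G))) :
    HasNormalPComplement p G := by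
  refine npc_reduction (fun G _ P =>
    HasNormalPComplement p (normalizer (thompsonSubgroupOf 0 P : Set G))) ?_ ?_ ?_ ?_ G P hJ
  · rintro G _ _ P H - hPH h1
    rw [thompsonSubgroupOf_subgroupOf hPH,
      ← subgroupOf_normalizer_eq ((thompsonSubgroupOf_le P).trans hPH)]
    exact hasNormalPComplement_subgroupOf h1 H
  · rintro G _ _ P N _ hP hN h1
    have hs := QuotientGroup.mk'_surjective N
    have hk : (Nat.card (QuotientGroup.mk' N).ker).Coprime p := by rwa [QuotientGroup.ker_mk']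
    rw [← map_thompsonSubgroupOf_of_disjoint (PSolv.disjoint_of_isPGroup_of_coprime hP hk).eq_bot,
      ← Constr.map_normalizer_of_coprime_ker hs hk (hP.to_le (thompsonSubgroupOf_le P))]
    exact hasNormalPComplement_map h1 _
  · exact fun G _ _ S hS hS0 h => h _ (thompsonSubgroupOf_le S)
      (fun h0 => ZJ.centerThompsonOf_ne_bot (.inl rfl) hS hS0 (eq_bot_iff.2 (h0 ▸ inf_le_left)))
      (normalizer_le_normalizer_thompsonSubgroupOf S)
  · intro G _ _ P hM h1
    have hJP := hM.eq_of_npc _ (le_normalizer.trans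
      (normalizer_le_normalizer_thompsonSubgroupOf (P : Subgroup G))) h1
    have := thompsonSubgroupOf_normal (p := 0) (pCore p G)
    rw [← thompsonSubgroupOf_eq_of_le (PSolv.pCore_le_sylow P) (thompsonSubgroupOf_le_iff.2
      fun A hA => le_pCore_of_minCex hp5 hM hA), normalizer_eq_top] at hJP
    exact hM.coatom.1 hJP.symm

theorem npc_centralizer (P : Sylow p G) :
    HasNormalPComplement p (centralizer (thompsonSubgroupOf 0 (P : Subgroup G) : Set G)) := by
  set J := thompsonSubgroupOf 0 (P : Subgroup G)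
  obtain ⟨Q⟩ : Nonempty (Sylow p (centralizer (J : Set G))) := inferInstance
  obtain ⟨g, hg, h⟩ := (IsSylowIn.of_sylow P (le_normalizer.trans
    (normalizer_le_normalizer_thompsonSubgroupOf (p := 0) (P : Subgroup G)))).exists_cj_le
    (Q.isPGroup'.map (centralizer (J : Set G)).subtype)
    ((map_subtype_le _).trans (centralizer_le_normalizer _))
  refine burnside_normal_complement Q fun c _ x hx => Subtype.ext (c.2 _ ?_)
  refine (mem_normalizer_iff.1 hg _).2 (mem_thompsonSubgroupOf_of_centralizes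
    (h (conj_mem_cj.2 (mem_map_of_mem _ hx))) (fun y hy => ?_) (pow_zero _))
  have := x.2 _ ((mem_normalizer_iff.1 (inv_mem hg) y).1 hy)
  calc _ = g * (g⁻¹ * y * g⁻¹⁻¹ * x) * g⁻¹ := by group
    _ = _ := by rw [this]; group

end CfsgLib.JAb
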